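import Mathlib
import Cfsg.Prelude.Def_Blocks
import Cfsg.Agent.Lib.Helper78.SubsecMajor2
import Cfsg.Agent.Lib.Helper59.BFD1

/-!
# `k₀(B) ≤ p^q` for a subsection `(x,b)`, `x` of order `p`, whose form has minimum `≥ l(b)`
(helper78)
-/

set_option autoImplicit false

namespace Cfsg.Agent.Lib.Helper78

open Cfsg Cfsg.Agent.Lib.Helper4 Cfsg.Agent.Lib.Helper16 Cfsg.Agent.Lib.Helper97
open scoped ComplexConjugate

/-- the sum of the primitive powers of a `p`-th root of unity -/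
theorem sum_units_pow {p : ℕ} [Fact p.Prime] {w : ℂ} (hw : w ^ p = 1) :
    ∑ j : (ZMod p)ˣ, w ^ (j : ZMod p).val = if w = 1 then (p : ℂ) - 1 else -1 := by
  classical
  have hp : p.Prime := Fact.out
  have h1 : ∑ a : ZMod p, w ^ a.val = 1 + ∑ j : (ZMod p)ˣ, w ^ (j : ZMod p).val := by
    let φ : (ZMod p)ˣ ↪ ZMod p := ⟨fun x => x, Units.val_injective⟩
    have hφ : Finset.univ.map φ = Finset.univ \ {(0 : ZMod p)} := by
      ext x
      simp only [Finset.mem_map, Finset.mem_univ, true_and, Finset.mem_sdiff,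
        Finset.mem_singleton]
      constructor
      · rintro ⟨u, rfl⟩; exact u.ne_zero
      · intro hx; exact ⟨Units.mk0 x hx, rfl⟩
    rw [← Finset.sum_sdiff ({0} : Finset (ZMod p)).subset_univ, Finset.sum_singleton, ← hφ,
      Finset.sum_map, ZMod.val_zero, pow_zero, add_comm]
    rfl
  split_ifs with h
  · subst h
    simp only [one_pow, Finset.sum_const, Finset.card_univ, ZMod.card_units p, nsmul_eq_mul,
      mul_one]
    rw [Nat.cast_sub hp.one_le]; simp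
  · have h2 : w * ∑ a : ZMod p, w ^ a.val = ∑ a : ZMod p, w ^ a.val := by
      rw [Finset.mul_sum, ← Equiv.sum_comp (Equiv.addRight (1 : ZMod p)) (fun a => w ^ a.val)]
      refine Finset.sum_congr rfl fun a _ => ?_
      simp only [Equiv.coe_addRight]
      rw [ZMod.val_add, ← pow_eq_pow_mod _ hw, pow_add, mul_comm]
      congr 1
      have : (1 : ZMod p).val = 1 := by
        have : Fact (1 < p) := ⟨hp.one_lt⟩
        exact ZMod.val_one p
      rw [this, pow_one]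
    have h3 : (w - 1) * ∑ a : ZMod p, w ^ a.val = 0 := by rw [sub_mul, h2, one_mul, sub_self]
    have h4 := (mul_eq_zero.1 h3).resolve_left (sub_ne_zero.2 h)
    rw [h1] at h4
    linear_combination h4

variable {G : Type*} [Group G] [Fintype G]
variable {M : Ideal AlgInt} {p : ℕ} [Fact p.Prime]

open Classical in
/-- Galois averages of the diagonal contributions, `x` of order `p`, with the matrix exposed -/
theorem exists_subsection_avg_prime (hM : IsPModular p M) (x : G) (hx : orderOf x = p)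
    {B : Set (IrrCharacter G)} {b : Set (IrrCharacter (Cen x))}
    (hind : IsInducedBlock M (Cen x) b B) :
    ∃ (lam : IrrCharacter (Cen x) → ℂ) (nn : IrrCharacter G → IrrCharacter (Cen x) → ℕ)
      (m : IrrCharacter (Cen x) → IrrCharacter (Cen x) → ℤ) (t : IrrCharacter G → ℝ),
      (∀ ζ, lam ζ ^ p = 1) ∧ (∀ ζ ξ, m ζ ξ = m ξ ζ) ∧
      (∀ ζ ∈ b, ∀ ξ, (m ζ ξ : ℂ) = ((p ^ blockDefect p b : ℕ) : ℂ) / (Fintype.card (Cen x) : ℂ) *
        ∑ s : Cen x, if ¬ p ∣ orderOf s then (ζ : Cen x → ℂ) s * conj ((ξ : Cen x → ℂ) s) else 0) ∧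
      (∀ χ, (t χ : ℂ) = ∑ ζ ∈ Finset.univ.filter (· ∈ b), ∑ ξ ∈ Finset.univ.filter (· ∈ b),
        rootAvg p (lam ζ * conj (lam ξ)) *
          (((nn χ ζ : ℤ) * (nn χ ξ : ℤ) * m ζ ξ : ℤ) : ℂ)) ∧
      (∀ χ, 0 ≤ t χ) ∧
      ∑ χ ∈ Finset.univ.filter (· ∈ B), t χ
        = ((p ^ blockDefect p b : ℕ) : ℝ) * (blockRank p b : ℝ) ∧
      ∀ χ ∈ B, blockHeight p B (χ : G → ℂ) = 0 →
        (((Finset.univ.filter (· ∈ B)).filter
          (fun χ : IrrCharacter G => blockHeight p B (χ : G → ℂ) = 0)).card : ℝ)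
          ≤ ((p ^ blockDefect p b : ℕ) : ℝ) * t χ := by
  have hMp : M.IsPrime := hM.2.1.isPrime
  have hx1 : orderOf x = p ^ 1 := by rw [pow_one]; exact hx
  have hBr : BrauerChar (Cen x) := fun θ hθ hE => Cfsg.Agent.S0164.result θ hθ hE
  obtain ⟨m, hm1, hm2, hm3⟩ := exists_regMatrix hBr hM hind.1
  choose nn hnn using fun (ψ : IrrCharacter G) (ξ : IrrCharacter (Cen x)) =>
    Helper74.IsCharacter.classInner_irr_nat
      (Helper74.IsCharacter.restrict (Helper74.IrrCharacter.isCharacter ψ) (Cen x)) ξ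
  set lam : IrrCharacter (Cen x) → ℂ :=
    fun ζ => (ζ : Cen x → ℂ) (cenSelf x) / (ζ : Cen x → ℂ) 1 with hlam
  have hl : ∀ ζ, lam ζ ^ p = 1 := by
    intro ζ
    have := central_ratio_pow x hx1 ζ
    rwa [pow_one] at this
  have hα : ∀ χ ψ, subAlpha p x b χ ψ = ∑ ζ ∈ Finset.univ.filter (· ∈ b),
        ∑ ξ ∈ Finset.univ.filter (· ∈ b), lam ζ * conj (lam ξ) *
          (((nn χ ζ : ℤ) * (nn ψ ξ : ℤ) * m ζ ξ : ℤ) : ℂ) := by
    intro χ ψ
    rw [subAlpha_expand]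
    refine Finset.sum_congr rfl fun ζ hζ => Finset.sum_congr rfl fun ξ _ => ?_
    rw [← hm3 ζ (Finset.mem_filter.1 hζ).2 ξ, classInner_tw, classInner_tw]
    have e1 : classInner (fun c : Cen x => (χ : G → ℂ) (c : G)) (ζ : Cen x → ℂ) = (nn χ ζ : ℂ) :=
      hnn χ ζ
    have e2 : classInner (fun c : Cen x => (ψ : G → ℂ) (c : G)) (ξ : Cen x → ℂ) = (nn ψ ξ : ℂ) :=
      hnn ψ ξ
    rw [e1, e2, map_mul, Complex.conj_natCast]
    push_cast
    ring
  have hβ : ∀ χ ∈ B, ∀ ψ ∈ B, blockHeight p B (χ : G → ℂ) = 0 → blockHeight p B (ψ : G → ℂ) = 0 →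
        ¬ MemLocalIdeal M ((∑ ζ ∈ Finset.univ.filter (· ∈ b), ∑ ξ ∈ Finset.univ.filter (· ∈ b),
          (nn χ ζ : ℤ) * (nn ψ ξ : ℤ) * m ζ ξ : ℤ) : ℂ) := fun χ hχ ψ hψ h0χ h0ψ =>
      not_memLocalIdeal_beta (Cen x) hM hind m hm2 nn hnn hχ hψ h0χ h0ψ
  obtain ⟨τ, hτ1, hτ2⟩ := galois_pkg p
  have hw : ∀ ζ ξ, (lam ζ * conj (lam ξ)) ^ p = 1 := by
    intro ζ ξ
    rw [mul_pow, ← map_pow, hl, hl, map_one, one_mul]
  have hw' : ∀ ζ ξ, (lam ζ * conj (lam ξ)) ^ p ^ 1 = 1 := by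
    intro ζ ξ; rw [pow_one]; exact hw ζ ξ
  have hαmem : ∀ χ ψ, subAlpha p x b χ ψ ∈ rootRing p := by
    intro χ ψ
    rw [hα]
    refine Subring.sum_mem _ fun ζ _ => Subring.sum_mem _ fun ξ _ => ?_
    exact Subring.mul_mem _ (mem_rootRing_of_pow (hw ζ ξ)) (intCast_mem _ _)
  have hne : ∀ χ ∈ (Finset.univ.filter (· ∈ B)).filter
      (fun χ : IrrCharacter G => blockHeight p B (χ : G → ℂ) = 0),
      ∀ ψ ∈ (Finset.univ.filter (· ∈ B)).filter
      (fun χ : IrrCharacter G => blockHeight p B (χ : G → ℂ) = 0), subAlpha p x b χ ψ ≠ 0 := by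
    intro χ hχ ψ hψ h0
    rw [Finset.mem_filter, Finset.mem_filter] at hχ hψ
    apply not_memLocalIdeal_subAlpha hM x hx1 hind hχ.1.2 hψ.1.2 hχ.2 hψ.2
    rw [h0]
    exact memLocalIdeal_zero hMp
  obtain ⟨t, ht1, ht2, ht3, ht4⟩ := abstract_avg p τ hτ1 hτ2 (Finset.univ.filter (· ∈ B))
    ((Finset.univ.filter (· ∈ B)).filter
      (fun χ : IrrCharacter G => blockHeight p B (χ : G → ℂ) = 0))
    (Finset.filter_subset _ _) (subAlpha p x b) hαmem (p ^ blockDefect p b) (blockRank p b)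
    (pow_pos hM.1.pos _) (subAlpha_sq hM x ⟨1, hx1⟩ hind) (subAlpha_trace hM x ⟨1, hx1⟩ hind) hne
  refine ⟨lam, nn, m, t, hl, hm1, hm3, fun χ => ?_, ht2, ht3, fun χ hχ h0 => ht4 χ ?_⟩
  · rw [ht1]
    have h2 : ∀ j : (ZMod p)ˣ, τ j (subAlpha p x b χ χ)
        = ∑ ζ ∈ Finset.univ.filter (· ∈ b), ∑ ξ ∈ Finset.univ.filter (· ∈ b),
          (lam ζ * conj (lam ξ)) ^ (j : ZMod p).val *
          (((nn χ ζ : ℤ) * (nn χ ξ : ℤ) * m ζ ξ : ℤ) : ℂ) := by
      intro j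
      rw [hα, map_sum]
      refine Finset.sum_congr rfl fun ζ _ => ?_
      rw [map_sum]
      refine Finset.sum_congr rfl fun ξ _ => ?_
      rw [map_mul, map_intCast, hτ1 j _ (hw ζ ξ)]
    rw [Finset.sum_congr rfl fun j _ => h2 j, Finset.sum_comm, Finset.mul_sum]
    refine Finset.sum_congr rfl fun ζ _ => ?_
    rw [Finset.sum_comm, Finset.mul_sum]
    refine Finset.sum_congr rfl fun ξ _ => ?_
    unfold rootAvg
    rw [← Finset.sum_mul]
    ring
  · rw [Finset.mem_filter, Finset.mem_filter]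
    exact ⟨⟨Finset.mem_univ _, hχ⟩, h0⟩

theorem rootAvg_prime_mul {w : ℂ} (hw : w ^ p = 1) :
    ((p : ℂ) - 1) * rootAvg p w = if w = 1 then (p : ℂ) - 1 else -1 := by
  have hp : p.Prime := Fact.out
  unfold rootAvg
  rw [sum_units_pow hw, ZMod.card_units p, Nat.cast_sub hp.one_le, Nat.cast_one, ← mul_assoc,
    mul_inv_cancel₀, one_mul]
  intro h
  have h2 : (p : ℂ) = 1 := by linear_combination h
  have h3 : p = 1 := by exact_mod_cast h2
  exact hp.one_lt.ne' h3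

open Classical in
theorem card_height_zero_le_of_min (hM : IsPModular p M) (x : G) (hx : orderOf x = p)
    {B : Set (IrrCharacter G)} {b : Set (IrrCharacter (Cen x))}
    (hind : IsInducedBlock M (Cen x) b B)
    (hmin : ∀ m : IrrCharacter (Cen x) → IrrCharacter (Cen x) → ℤ,
      (∀ ζ ∈ b, ∀ ξ, (m ζ ξ : ℂ) = ((p ^ blockDefect p b : ℕ) : ℂ) / (Fintype.card (Cen x) : ℂ) *
        ∑ s : Cen x, if ¬ p ∣ orderOf s then (ζ : Cen x → ℂ) s * conj ((ξ : Cen x → ℂ) s) else 0) →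
      ∀ v : IrrCharacter (Cen x) → ℤ, regForm (Finset.univ.filter (· ∈ b)) m v v = 0 ∨
      (blockRank p b : ℤ) ≤ regForm (Finset.univ.filter (· ∈ b)) m v v) :
    ((Finset.univ.filter (· ∈ B)).filter
      (fun χ : IrrCharacter G => blockHeight p B (χ : G → ℂ) = 0)).card ≤ p ^ blockDefect p b := by
  have hMp : M.IsPrime := hM.2.1.isPrime
  have hp : p.Prime := hM.1
  obtain ⟨lam, nn, m, t, hl, hm1, hm3, ht1, ht2, ht3, ht4⟩ :=
    exists_subsection_avg_prime hM x hx hind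
  have hmin' := hmin m hm3
  set bF := Finset.univ.filter (· ∈ b) with hbF
  set k0F := (Finset.univ.filter (· ∈ B)).filter
      (fun χ : IrrCharacter G => blockHeight p B (χ : G → ℂ) = 0) with hk0F
  have hκpos : (0 : ℝ) < ((p ^ blockDefect p b : ℕ) : ℝ) / (Fintype.card (Cen x) : ℝ) := by
    apply div_pos
    · exact_mod_cast pow_pos hM.1.pos _
    · exact_mod_cast Fintype.card_pos
  have hF : ∀ n n' : IrrCharacter (Cen x) → ℤ, ((regForm bF m n n' : ℤ) : ℂ)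
      = ((((p ^ blockDefect p b : ℕ) : ℝ) / (Fintype.card (Cen x) : ℝ) : ℝ) : ℂ) *
        ∑ s, Vr p b n s * conj (Vr p b n' s) := by
    intro n n'
    rw [regForm_eq b m _ hm3]
    push_cast
    rfl
  obtain ⟨hpos, hzero⟩ := form_pos (fun n n' => regForm bF m n n') (Vr p b) _ hκpos hF
  have hrad : ∀ v, regForm bF m v v = 0 → ∀ w, regForm bF m v w = 0 := by
    intro v hv w
    have h1 := hF v w
    simp only [hzero v hv, zero_mul, Finset.sum_const_zero, mul_zero] at h1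
    exact_mod_cast h1
  have : Fintype (rootsOfUnity p ℂ) := Fintype.ofFinite _
  have hcardR : Fintype.card (rootsOfUnity p ℂ) = p := by
    rw [← Nat.card_eq_fintype_card]; exact Complex.card_rootsOfUnity p
  have hnorm : ∀ ξ, lam ξ * conj (lam ξ) = 1 := by
    intro ξ
    have h1 : ‖lam ξ‖ = 1 := Complex.norm_eq_one_of_pow_eq_one (hl ξ) hp.ne_zero
    rw [Complex.mul_conj', h1]; simp
  have hw : ∀ ζ ξ, (lam ζ * conj (lam ξ)) ^ p = 1 := by
    intro ζ ξ
    rw [mul_pow, ← map_pow, hl, hl, map_one, one_mul]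
  have hw1 : ∀ ζ ξ, lam ζ * conj (lam ξ) = 1 ↔ lam ζ = lam ξ := by
    intro ζ ξ
    constructor
    · intro h
      calc lam ζ = lam ζ * conj (lam ξ) * lam ξ := by
            rw [mul_assoc, mul_comm (conj (lam ξ)), hnorm, mul_one]
        _ = lam ξ := by rw [h, one_mul]
    · intro h; rw [h]; exact hnorm ξ
  -- the vectors
  set xx : IrrCharacter G → rootsOfUnity p ℂ → IrrCharacter (Cen x) → ℤ :=
    fun χ μ ζ => if ((μ : ℂˣ) : ℂ) = lam ζ then (nn χ ζ : ℤ) else 0 with hxx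
  have hone : ∀ (ζ : IrrCharacter (Cen x)) (f : rootsOfUnity p ℂ → ℤ),
      ∑ μ : rootsOfUnity p ℂ, (if ((μ : ℂˣ) : ℂ) = lam ζ then f μ else 0)
        = f (rootsOfUnity.mkOfPowEq (lam ζ) (hl ζ)) := by
    intro ζ f
    rw [Finset.sum_eq_single (rootsOfUnity.mkOfPowEq (lam ζ) (hl ζ))]
    · rw [if_pos (rootsOfUnity.coe_mkOfPowEq (hl ζ))]
    · intro μ _ hne
      rw [if_neg]
      intro h
      apply hne
      apply Subtype.ext
      apply Units.ext
      rw [h, rootsOfUnity.coe_mkOfPowEq]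
    · intro h; exact absurd (Finset.mem_univ _) h
  have hsumx : ∀ χ, ∑ μ, xx χ μ = fun ζ => (nn χ ζ : ℤ) := by
    intro χ
    funext ζ
    rw [Finset.sum_apply]
    simp only [hxx]
    exact hone ζ (fun _ => (nn χ ζ : ℤ))
  have hsumq : ∀ χ, ∑ μ, regForm bF m (xx χ μ) (xx χ μ)
      = ∑ ζ ∈ bF, ∑ ξ ∈ bF, (if lam ζ = lam ξ then (nn χ ζ : ℤ) * (nn χ ξ : ℤ) * m ζ ξ else 0) := by
    intro χ
    simp only [regForm_apply]
    rw [Finset.sum_comm]
    refine Finset.sum_congr rfl fun ζ _ => ?_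
    rw [Finset.sum_comm]
    refine Finset.sum_congr rfl fun ξ _ => ?_
    have h1 : ∀ μ : rootsOfUnity p ℂ, xx χ μ ζ * m ζ ξ * xx χ μ ξ
        = if ((μ : ℂˣ) : ℂ) = lam ζ then (nn χ ζ : ℤ) * m ζ ξ * xx χ μ ξ else 0 := by
      intro μ
      simp only [hxx]
      split_ifs <;> simp
    rw [Finset.sum_congr rfl fun μ _ => h1 μ, hone ζ (fun μ => (nn χ ζ : ℤ) * m ζ ξ * xx χ μ ξ)]
    simp only [hxx, rootsOfUnity.coe_mkOfPowEq]
    by_cases h : lam ζ = lam ξ
    · simp only [h, if_true]; ring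
    · simp only [h, if_false]; ring
  have key : ∀ χ, ((p : ℝ) - 1) * t χ = (((p : ℤ) * ∑ μ, regForm bF m (xx χ μ) (xx χ μ)
      - regForm bF m (∑ μ, xx χ μ) (∑ μ, xx χ μ) : ℤ) : ℝ) := by
    intro χ
    have hC : (((p : ℝ) - 1) * t χ : ℂ) = (((p : ℤ) * ∑ μ, regForm bF m (xx χ μ) (xx χ μ)
      - regForm bF m (∑ μ, xx χ μ) (∑ μ, xx χ μ) : ℤ) : ℂ) := by
      rw [ht1, hsumq, hsumx, regForm_apply, Finset.mul_sum, Finset.mul_sum,
        ← Finset.sum_sub_distrib, Int.cast_sum]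
      refine Finset.sum_congr rfl fun ζ _ => ?_
      rw [Finset.mul_sum, Finset.mul_sum, ← Finset.sum_sub_distrib, Int.cast_sum]
      refine Finset.sum_congr rfl fun ξ _ => ?_
      rw [← mul_assoc]
      push_cast
      rw [rootAvg_prime_mul (hw ζ ξ)]
      by_cases h : lam ζ = lam ξ
      · rw [if_pos ((hw1 ζ ξ).2 h), if_pos h]; push_cast; ring
      · rw [if_neg (fun h' => h ((hw1 ζ ξ).1 h')), if_neg h]; push_cast; ring
    exact_mod_cast hC
  have hlpos : 0 < blockRank p b := by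
    by_contra h0
    have h1 : blockRank p b = 0 := by omega
    rw [h1] at ht3
    obtain ⟨ψ0, hψ0, hψ0h⟩ := exists_height_zero (p := p) (IsPBlock.nonempty hMp hind.2.1)
    have h2 := ht4 ψ0 hψ0 hψ0h
    have h3 : t ψ0 ≤ ∑ χ ∈ Finset.univ.filter (· ∈ B), t χ :=
      Finset.single_le_sum (fun χ _ => ht2 χ) (Finset.mem_filter.2 ⟨Finset.mem_univ _, hψ0⟩)
    have h4 : t ψ0 = 0 := le_antisymm (by rw [ht3] at h3; simpa using h3) (ht2 ψ0)
    rw [h4, mul_zero] at h2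
    have h5 : ψ0 ∈ k0F := by
      rw [hk0F, Finset.mem_filter, Finset.mem_filter]
      exact ⟨⟨Finset.mem_univ _, hψ0⟩, hψ0h⟩
    have h6 : 0 < k0F.card := Finset.card_pos.2 ⟨ψ0, h5⟩
    have h7 : (0 : ℝ) < (k0F.card : ℝ) := by exact_mod_cast h6
    linarith
  have hp1 : (0 : ℝ) < (p : ℝ) - 1 := by
    have : (1 : ℝ) < p := by exact_mod_cast hp.one_lt
    linarith
  have hge : ∀ χ ∈ k0F, (blockRank p b : ℝ) ≤ t χ := by
    intro χ hχ
    have hχ' := hχ
    rw [hk0F, Finset.mem_filter, Finset.mem_filter] at hχ'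
    have h1 := ht4 χ hχ'.1.2 hχ'.2
    have h2 : (0 : ℝ) < (k0F.card : ℝ) := by exact_mod_cast Finset.card_pos.2 ⟨χ, hχ⟩
    have h3 : 0 < t χ := by
      by_contra hle
      have h4 : t χ = 0 := le_antisymm (not_lt.1 hle) (ht2 χ)
      rw [h4, mul_zero] at h1
      linarith
    have h5 : ((p : ℤ) * ∑ μ, regForm bF m (xx χ μ) (xx χ μ)
      - regForm bF m (∑ μ, xx χ μ) (∑ μ, xx χ μ) : ℤ) ≠ 0 := by
      intro h0
      have := key χ
      rw [h0] at this
      have h6 : 0 < ((p : ℝ) - 1) * t χ := mul_pos hp1 h3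
      rw [this] at h6
      simp at h6
    have h6 := Cfsg.Agent.Lib.Helper59.BFD1.sum_form_ge (regForm bF m) (regForm_symm bF m hm1) hpos hrad (blockRank p b : ℤ)
      (by positivity) hmin' (xx χ) (by rw [hcardR]; exact h5)
    rw [hcardR] at h6
    have h7 : (((p : ℤ) - 1) * (blockRank p b : ℤ) : ℝ) ≤ ((p : ℝ) - 1) * t χ := by
      rw [key χ]
      exact_mod_cast h6
    push_cast at h7
    exact le_of_mul_le_mul_left h7 hp1
  have h1 : (k0F.card : ℝ) * (blockRank p b : ℝ) ≤ ((p ^ blockDefect p b : ℕ) : ℝ) *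
      (blockRank p b : ℝ) := by
    rw [← ht3]
    calc (k0F.card : ℝ) * (blockRank p b : ℝ) = ∑ χ ∈ k0F, (blockRank p b : ℝ) := by
          rw [Finset.sum_const, nsmul_eq_mul]
      _ ≤ ∑ χ ∈ k0F, t χ := Finset.sum_le_sum hge
      _ ≤ ∑ χ ∈ Finset.univ.filter (· ∈ B), t χ :=
          Finset.sum_le_sum_of_subset_of_nonneg (Finset.filter_subset _ _) fun χ _ _ => ht2 χ
  have h2 : (0 : ℝ) < (blockRank p b : ℝ) := by exact_mod_cast hlpos
  have h3 := le_of_mul_le_mul_right h1 h2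
  exact_mod_cast h3

end Cfsg.Agent.Lib.Helper78
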