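import Mathlib
import Cfsg.Agent.Lib.Helper1.BFA1
import Cfsg.Agent.Lib.Helper59.BFA2
import Cfsg.Agent.Lib.Helper59.BFA3

/-!
# Minimum of an integral form `p · proj` of rank one modulo `p` (helper78)
-/

set_option autoImplicit false

namespace Cfsg.Agent.Lib.Helper78

open Matrix

theorem minor_mul_right {α β γ : Type*} [Fintype β] (P : ℤ) (Y : Matrix α β ℤ) (T : Matrix β γ ℤ)
    (h : ∀ i j k l, P ∣ Y i j * Y k l - Y i l * Y k j) (i : α) (j : γ) (k : α) (l : γ) :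
    P ∣ (Y * T) i j * (Y * T) k l - (Y * T) i l * (Y * T) k j := by
  have : (Y * T) i j * (Y * T) k l - (Y * T) i l * (Y * T) k j
      = ∑ b, ∑ d, T b j * T d l * (Y i b * Y k d - Y i d * Y k b) := by
    simp only [Matrix.mul_apply, Finset.sum_mul_sum, mul_sub, Finset.sum_sub_distrib]
    congr 1
    · exact Finset.sum_congr rfl fun b _ => Finset.sum_congr rfl fun d _ => by ring
    · rw [Finset.sum_comm]
      exact Finset.sum_congr rfl fun b _ => Finset.sum_congr rfl fun d _ => by ring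
  rw [this]
  exact Finset.dvd_sum fun b _ => Finset.dvd_sum fun d _ => Dvd.dvd.mul_left (h i b k d) _

theorem minor_transpose {α β : Type*} (P : ℤ) (Y : Matrix α β ℤ)
    (h : ∀ i j k l, P ∣ Y i j * Y k l - Y i l * Y k j) (i : β) (j : α) (k : β) (l : α) :
    P ∣ Yᵀ i j * Yᵀ k l - Yᵀ i l * Yᵀ k j := by
  have := h j i l k
  simp only [Matrix.transpose_apply]
  convert this using 1
  ring

theorem form_min {X : Type*} [Fintype X] [DecidableEq X] (p : ℕ) (hp : p.Prime) (M : Matrix X X ℤ)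
    (hsymm : Mᵀ = M) (hidem : M * M = (p : ℤ) • M) (hdiag : ∀ χ, M χ χ ≠ p)
    (hminor : ∀ i j k l, (p : ℤ) ∣ M i j * M k l - M i l * M k j) (c : X → ℤ)
    (hc : c ⬝ᵥ M.mulVec c ≠ 0) : M.trace ≤ p * (c ⬝ᵥ M.mulVec c) := by
  obtain ⟨n, A, T, hMA, hTA, hker⟩ := Cfsg.Agent.Lib.Helper59.BFA3.exists_ker_basis M
  set N : Matrix X X ℤ := (p : ℤ) • (1 : Matrix X X ℤ) - M with hN
  have hMN : M * N = 0 := by
    rw [hN, Matrix.mul_sub, Matrix.mul_smul, Matrix.mul_one, hidem, sub_self]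
  have hNA : N * A = (p : ℤ) • A := by
    rw [hN, Matrix.sub_mul, hMA, sub_zero, Matrix.smul_mul, Matrix.one_mul]
  have hNs : Nᵀ = N := by
    rw [hN, Matrix.transpose_sub, Matrix.transpose_smul, Matrix.transpose_one, hsymm]
  set R : Matrix (Fin n) X ℤ := Tᵀ * N with hR
  have hNAR : N = A * R := by
    ext i j
    have h1 : M.mulVec (fun i => N i j) = 0 := by
      funext a
      have := congrFun (congrFun hMN a) j
      simpa [Matrix.mul_apply, Matrix.mulVec, dotProduct] using this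
    have h2 := congrFun (hker _ h1) i
    rw [h2, hR, Matrix.mul_apply]
    simp only [Matrix.mulVec, dotProduct, Matrix.mul_apply]
  set Θ : Matrix (Fin n) (Fin n) ℤ := Tᵀ * N * T with hΘ
  have hΘs : Θᵀ = Θ := by
    rw [hΘ, Matrix.transpose_mul, Matrix.transpose_mul, Matrix.transpose_transpose, hNs,
      Matrix.mul_assoc]
  have hRΘ : R = Θ * Aᵀ := by
    have h1 : N = Rᵀ * Aᵀ := by
      conv_lhs => rw [← hNs, hNAR, Matrix.transpose_mul]
    have h2 : Tᵀ * Rᵀ = Θ := by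
      have h3 : R * T = Θ := rfl
      rw [← Matrix.transpose_mul, h3, hΘs]
    calc R = Tᵀ * (Rᵀ * Aᵀ) := by rw [← h1]
      _ = Θ * Aᵀ := by rw [← Matrix.mul_assoc, h2]
  have hNΘ : N = A * Θ * Aᵀ := by rw [Matrix.mul_assoc, ← hRΘ]; exact hNAR
  set Γ : Matrix (Fin n) (Fin n) ℤ := Aᵀ * A with hΓ
  have hΓs : Γᵀ = Γ := by rw [hΓ, Matrix.transpose_mul, Matrix.transpose_transpose]
  have hΘΓ : Θ * Γ = (p : ℤ) • (1 : Matrix (Fin n) (Fin n) ℤ) := by
    have h1 : Tᵀ * (N * A) = (p : ℤ) • (1 : Matrix (Fin n) (Fin n) ℤ) := by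
      rw [hNA, Matrix.mul_smul, hTA]
    rw [← h1, hNΘ]
    calc Θ * Γ = (Tᵀ * A) * (Θ * (Aᵀ * A)) := by rw [hTA, Matrix.one_mul]
      _ = Tᵀ * (A * Θ * Aᵀ * A) := by simp only [Matrix.mul_assoc]
  have hΓΘ : Γ * Θ = (p : ℤ) • (1 : Matrix (Fin n) (Fin n) ℤ) := by
    have := congrArg Matrix.transpose hΘΓ
    rwa [Matrix.transpose_mul, hΓs, hΘs, Matrix.transpose_smul, Matrix.transpose_one] at this
  have hdet : Θ.det * Γ.det = (p : ℤ) ^ n := by
    rw [← Matrix.det_mul, hΘΓ, Matrix.det_smul, Matrix.det_one, mul_one, Fintype.card_fin]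
  have hp0 : (p : ℤ) ≠ 0 := by exact_mod_cast hp.ne_zero
  have hppos : (0 : ℤ) < p := by exact_mod_cast hp.pos
  -- minors
  have hNminor : ∀ i j k l, (p : ℤ) ∣ N i j * N k l - N i l * N k j := by
    intro i j k l
    obtain ⟨t, ht⟩ := hminor i j k l
    have e : ∀ a b, N a b = (p : ℤ) * (1 : Matrix X X ℤ) a b - M a b := by
      intro a b; rw [hN, Matrix.sub_apply, Matrix.smul_apply, smul_eq_mul]
    refine ⟨(p : ℤ) * (1 : Matrix X X ℤ) i j * (1 : Matrix X X ℤ) k l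
      - (1 : Matrix X X ℤ) i j * M k l - M i j * (1 : Matrix X X ℤ) k l
      - ((p : ℤ) * (1 : Matrix X X ℤ) i l * (1 : Matrix X X ℤ) k j
      - (1 : Matrix X X ℤ) i l * M k j - M i l * (1 : Matrix X X ℤ) k j) + t, ?_⟩
    rw [e, e, e, e]
    linear_combination ht
  have hΘminor : ∀ i j k l, (p : ℤ) ∣ Θ i j * Θ k l - Θ i l * Θ k j := by
    have h1 := minor_mul_right (p : ℤ) N T hNminor
    have h2 := minor_transpose (p : ℤ) (N * T) h1
    have h3 := minor_mul_right (p : ℤ) (N * T)ᵀ T h2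
    have h4 := minor_transpose (p : ℤ) ((N * T)ᵀ * T) h3
    have e : ((N * T)ᵀ * T)ᵀ = Θ := by
      rw [Matrix.transpose_mul, Matrix.transpose_transpose, hΘ, Matrix.mul_assoc]
    rwa [e] at h4
  have hΘdvd := Cfsg.Agent.Lib.Helper59.BFA2.pow_dvd_det_of_minors p hp Θ hΘminor
  rw [Fintype.card_fin] at hΘdvd
  have hΓdvd : Γ.det ∣ (p : ℤ) := by
    rcases Nat.eq_zero_or_pos n with h0 | hn
    · subst h0
      rw [Matrix.det_isEmpty]; exact one_dvd _
    · obtain ⟨t, ht⟩ := hΘdvd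
      refine ⟨t, ?_⟩
      have h1 : (p : ℤ) ^ n = (p : ℤ) ^ (n - 1) * p := by
        rw [← pow_succ, Nat.sub_add_cancel hn]
      rw [ht, h1, mul_assoc] at hdet
      have := mul_left_cancel₀ (pow_ne_zero _ hp0) hdet
      rw [← this]; ring
  have hΓnn : 0 ≤ Γ.det := by
    have h1 : (0 : ℝ) ≤ ((A.map (Int.cast : ℤ → ℝ))ᴴ * (A.map (Int.cast : ℤ → ℝ))).det :=
      (Matrix.posSemidef_conjTranspose_mul_self _).det_nonneg
    have h2 : ((A.map (Int.cast : ℤ → ℝ))ᴴ * (A.map (Int.cast : ℤ → ℝ)))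
        = Γ.map (Int.cast : ℤ → ℝ) := by
      rw [hΓ]
      ext i j
      simp [Matrix.mul_apply, Matrix.conjTranspose_apply]
    rw [h2] at h1
    have h3 : (Γ.map (Int.cast : ℤ → ℝ)).det = ((Γ.det : ℤ) : ℝ) := by
      have := (Int.castRingHom ℝ).map_det Γ
      simpa using this.symm
    rw [h3] at h1
    exact_mod_cast h1
  have hΓ0 : Γ.det ≠ 0 := by
    intro h0
    rw [h0, mul_zero] at hdet
    exact pow_ne_zero n hp0 hdet.symm
  have hΓpos : 0 < Γ.det := lt_of_le_of_ne hΓnn (Ne.symm hΓ0)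
  have hΓle : Γ.det ≤ p := Int.le_of_dvd hppos hΓdvd
  -- the bordered matrix
  set C : Matrix X Unit ℤ := Matrix.replicateCol Unit c with hC
  set Z : Matrix X (Fin n ⊕ Unit) ℤ := Matrix.fromCols A C with hZ
  set g : Matrix (Fin n) Unit ℤ := Aᵀ * C with hg
  have hZZ : Zᵀ * Z = Matrix.fromBlocks Γ g gᵀ (Cᵀ * C) := by
    rw [hZ, Matrix.transpose_fromCols, Matrix.fromRows_mul_fromCols, hg, Matrix.transpose_mul,
      Matrix.transpose_transpose]
  set q : ℤ := c ⬝ᵥ M.mulVec c with hq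
  have hqM : Cᵀ * M * C = q • (1 : Matrix Unit Unit ℤ) := by
    ext a b
    simp [hC, hq, Matrix.mul_apply, dotProduct, Matrix.mulVec, Finset.sum_mul, Finset.mul_sum,
      mul_assoc]
    rw [Finset.sum_comm]
  have hqq : (p : ℤ) • (Cᵀ * C) - gᵀ * Θ * g = q • (1 : Matrix Unit Unit ℤ) := by
    rw [← hqM]
    have h1 : gᵀ * Θ * g = Cᵀ * N * C := by
      rw [hNΘ, hg, Matrix.transpose_mul, Matrix.transpose_transpose]
      simp only [Matrix.mul_assoc]
    rw [h1, hN, Matrix.mul_sub, Matrix.sub_mul, Matrix.mul_smul, Matrix.mul_one, Matrix.smul_mul]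
    abel
  have hprod : (Zᵀ * Z) * Matrix.fromBlocks (1 : Matrix (Fin n) (Fin n) ℤ) (-(Θ * g)) 0
      ((p : ℤ) • (1 : Matrix Unit Unit ℤ))
      = Matrix.fromBlocks Γ 0 gᵀ (q • (1 : Matrix Unit Unit ℤ)) := by
    rw [hZZ, Matrix.fromBlocks_multiply]
    congr 1
    · simp
    · rw [Matrix.mul_neg, ← Matrix.mul_assoc, hΓΘ, Matrix.smul_mul, Matrix.one_mul,
        Matrix.mul_smul, Matrix.mul_one]
      abel
    · simp
    · rw [← hqq, Matrix.mul_neg, Matrix.mul_smul, Matrix.mul_one, ← Matrix.mul_assoc]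
      abel
  have hdetZ : (Zᵀ * Z).det * p = Γ.det * q := by
    have := congrArg Matrix.det hprod
    rw [Matrix.det_mul, Matrix.det_fromBlocks_zero₂₁, Matrix.det_fromBlocks_zero₁₂,
      Matrix.det_one, one_mul, Matrix.det_smul, Matrix.det_smul, Matrix.det_one] at this
    simpa using this
  have hZ0 : (Zᵀ * Z).det ≠ 0 := by
    intro h0
    rw [h0, zero_mul] at hdetZ
    exact (mul_ne_zero hΓ0 hc) hdetZ.symm
  have hrow : ∀ χ, Z χ ≠ 0 := by
    intro χ h0
    have hA : ∀ j, A χ j = 0 := by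
      intro j
      have := congrFun h0 (Sum.inl j)
      simpa [hZ] using this
    apply hdiag χ
    have h1 : N χ χ = 0 := by
      rw [hNΘ, Matrix.mul_assoc, Matrix.mul_apply]
      exact Finset.sum_eq_zero fun j _ => by rw [hA j, zero_mul]
    rw [hN, Matrix.sub_apply, Matrix.smul_apply, Matrix.one_apply_eq, smul_eq_mul, mul_one] at h1
    omega
  have hA1 := Cfsg.Agent.Lib.Helper1.BF.gram_det_ge Z hrow hZ0
  rw [Fintype.card_sum, Fintype.card_fin, Fintype.card_unit] at hA1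
  push_cast at hA1
  -- trace
  have htr : M.trace = (p : ℤ) * ((Fintype.card X : ℤ) - n) := by
    have h1 : N.trace = (p : ℤ) * n := by
      rw [hNΘ, Matrix.trace_mul_comm, ← Matrix.mul_assoc, Matrix.trace_mul_comm, ← hΓ,
        hΘΓ, Matrix.trace_smul, Matrix.trace_one, Fintype.card_fin]
      simp
    have h2 : M = (p : ℤ) • (1 : Matrix X X ℤ) - N := by rw [hN]; abel
    rw [h2, Matrix.trace_sub, Matrix.trace_smul, Matrix.trace_one, h1]
    simp
    ring
  have hqnn : 0 ≤ (p : ℤ) * q := by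
    have h1 : (M.mulVec c) ⬝ᵥ (M.mulVec c) = (p : ℤ) * q := by
      rw [hq, Matrix.dotProduct_mulVec, ← Matrix.mulVec_transpose, hsymm, Matrix.mulVec_mulVec,
        hidem, Matrix.smul_mulVec, smul_dotProduct, dotProduct_comm]
      simp
    rw [← h1]
    exact Finset.sum_nonneg fun i _ => mul_self_nonneg _
  have hqpos : 0 < q := by
    have : 0 ≤ q := by
      by_contra hlt
      push Not at hlt
      nlinarith
    exact lt_of_le_of_ne this (Ne.symm hc)
  rw [htr]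
  have h5 : (p : ℤ) * ((Fintype.card X : ℤ) - n) ≤ (Zᵀ * Z).det * p := by nlinarith
  have h6 : Γ.det * q ≤ (p : ℤ) * q := mul_le_mul_of_nonneg_right hΓle hqpos.le
  linarith

end Cfsg.Agent.Lib.Helper78
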