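import Mathlib
import Cfsg.Prelude.Def_Blocks
import Cfsg.Agent.Lib.Helper78.SubsecMajor2
import Cfsg.Agent.Lib.Helper78.DefectOneTwo
import Cfsg.Agent.Lib.Helper78.BF.FormMin

/-!
# The integral form of a block of defect one takes no value in `(0, l(b))` (helper78)
-/

set_option autoImplicit false

namespace Cfsg.Agent.Lib.Helper78

open Cfsg Cfsg.Agent.Lib.Helper4 Cfsg.Agent.Lib.Helper16 Cfsg.Agent.Lib.Helper97
open scoped ComplexConjugate

variable {K : Type*} [Group K] [Fintype K]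
variable {M : Ideal AlgInt} {p : ℕ}

theorem regForm_single_single {I : Type*} [DecidableEq I] (bF : Finset I) (m : I → I → ℤ) {ζ ξ : I}
    (hζ : ζ ∈ bF) (hξ : ξ ∈ bF) :
    regForm bF m (Pi.single ζ 1) (Pi.single ξ 1) = m ζ ξ := by
  rw [regForm_single_left bF m hζ, Finset.sum_eq_single ξ]
  · simp
  · intro ξ' _ hne
    simp [Pi.single_eq_of_ne hne]
  · intro h; exact absurd hξ h

open Classical in
/-- the matrix `p^d [ζ,ξ]°` is `p^d` times an idempotent -/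
theorem regMatrix_idem [Fact p.Prime] (hM : IsPModular p M) {b : Set (IrrCharacter K)}
    (hb : IsPBlock M b) (m : IrrCharacter K → IrrCharacter K → ℤ) (hm1 : ∀ ζ ξ, m ζ ξ = m ξ ζ)
    (hm3 : ∀ ζ ∈ b, ∀ ξ, (m ζ ξ : ℂ) = ((p ^ blockDefect p b : ℕ) : ℂ) / (Fintype.card K : ℂ) *
        ∑ s : K, if ¬ p ∣ orderOf s then (ζ : K → ℂ) s * conj ((ξ : K → ℂ) s) else 0)
    {ζ η : IrrCharacter K} (hζ : ζ ∈ b) (hη : η ∈ b) :
    ∑ ξ ∈ Finset.univ.filter (· ∈ b), m ζ ξ * m ξ η = (p : ℤ) ^ blockDefect p b * m ζ η := by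
  set bF := Finset.univ.filter (· ∈ b) with hbF
  set κ : ℂ := ((p ^ blockDefect p b : ℕ) : ℂ) / (Fintype.card K : ℂ) with hκ
  have hc0 : (Fintype.card K : ℂ) ≠ 0 := by exact_mod_cast Fintype.card_ne_zero
  have hp0 : ((p ^ blockDefect p b : ℕ) : ℂ) ≠ 0 := by
    exact_mod_cast pow_ne_zero _ hM.1.ne_zero
  have hκ0 : κ ≠ 0 := div_ne_zero hp0 hc0
  have hmem : ∀ {ξ}, ξ ∈ b → ξ ∈ bF := fun h => Finset.mem_filter.2 ⟨Finset.mem_univ _, h⟩
  have hF : ∀ ξ ∈ bF, ∀ ζ' ∈ bF, (m ξ ζ' : ℂ) = κ * ∑ s : K, Vr p b (Pi.single ξ 1) s *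
      conj (Vr p b (Pi.single ζ' 1) s) := by
    intro ξ hξ ζ' hζ'
    rw [← regForm_eq b m κ hm3, regForm_single_single _ m hξ hζ']
  have hKI : ∀ s s' : K, ∑ ξ ∈ bF, Vr p b (Pi.single ξ 1) s * conj (Vr p b (Pi.single ξ 1) s')
      = if ¬ p ∣ orderOf s then (if ¬ p ∣ orderOf s' then blockKer b s s' else 0) else 0 := by
    intro s s'
    have h1 : ∀ ξ ∈ bF, Vr p b (Pi.single ξ 1) s * conj (Vr p b (Pi.single ξ 1) s')
        = if ¬ p ∣ orderOf s then (if ¬ p ∣ orderOf s' then (ξ : K → ℂ) s * conj ((ξ : K → ℂ) s')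
          else 0) else 0 := by
      intro ξ hξ
      rw [Vr_single b (Finset.mem_filter.1 hξ).2, Vr_single b (Finset.mem_filter.1 hξ).2]
      by_cases hs : p ∣ orderOf s
      · simp [hs]
      · by_cases hs' : p ∣ orderOf s'
        · simp [hs']
        · simp [hs, hs']
    rw [Finset.sum_congr rfl h1]
    by_cases hs : p ∣ orderOf s
    · simp [hs]
    · by_cases hs' : p ∣ orderOf s'
      · simp [hs']
      · simp only [if_pos hs, if_pos hs']
        unfold blockKer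
        rw [hbF, Finset.sum_filter]
  have h2 := gram_pair bF (fun ξ s => Vr p b (Pi.single ξ 1) s) _ (Fintype.card K : ℂ) hKI
    (Vr p b (Pi.single ζ 1)) (Vr p b (Pi.single η 1)) (Vr_rep hM hb (Pi.single η 1))
  have h3 : ∀ ξ ∈ bF, (∑ s, Vr p b (Pi.single ξ 1) s * conj (Vr p b (Pi.single ζ 1) s)) *
      conj (∑ s, Vr p b (Pi.single ξ 1) s * conj (Vr p b (Pi.single η 1) s))
      = (m ζ ξ : ℂ) * (m ξ η : ℂ) / (κ * κ) := by
    intro ξ hξ
    have e1 := hF ξ hξ ζ (hmem hζ)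
    have e2 := hF ξ hξ η (hmem hη)
    have e3 : ∑ s, Vr p b (Pi.single ξ 1) s * conj (Vr p b (Pi.single ζ 1) s) = (m ξ ζ : ℂ) / κ := by
      rw [e1]; field_simp
    have e4 : ∑ s, Vr p b (Pi.single ξ 1) s * conj (Vr p b (Pi.single η 1) s) = (m ξ η : ℂ) / κ := by
      rw [e2]; field_simp
    have hκc : conj κ = κ := by
      rw [hκ, map_div₀, Complex.conj_natCast, Complex.conj_natCast]
    rw [e3, e4, map_div₀, map_intCast, hκc, hm1 ξ ζ]
    field_simp
  rw [Finset.sum_congr rfl h3] at h2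
  have e5 : ∑ s, Vr p b (Pi.single η 1) s * conj (Vr p b (Pi.single ζ 1) s) = (m η ζ : ℂ) / κ := by
    rw [hF η (hmem hη) ζ (hmem hζ)]; field_simp
  rw [e5, ← Finset.sum_div, hm1 η ζ] at h2
  have h4 : (∑ ξ ∈ bF, (m ζ ξ : ℂ) * (m ξ η : ℂ)) = ((p ^ blockDefect p b : ℕ) : ℂ) * (m ζ η : ℂ) := by
    rw [div_eq_iff (mul_ne_zero hκ0 hκ0)] at h2
    rw [h2, hκ]
    field_simp
  exact_mod_cast h4

open Classical in
theorem regMatrix_trace [Fact p.Prime] (hM : IsPModular p M) {b : Set (IrrCharacter K)}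
    (hb : IsPBlock M b) (m : IrrCharacter K → IrrCharacter K → ℤ)
    (hm3 : ∀ ζ ∈ b, ∀ ξ, (m ζ ξ : ℂ) = ((p ^ blockDefect p b : ℕ) : ℂ) / (Fintype.card K : ℂ) *
        ∑ s : K, if ¬ p ∣ orderOf s then (ζ : K → ℂ) s * conj ((ξ : K → ℂ) s) else 0) :
    ∑ ζ ∈ Finset.univ.filter (· ∈ b), m ζ ζ = (p : ℤ) ^ blockDefect p b * (blockRank p b : ℤ) := by
  have hMp := pmod_isPrime hM
  have hbu : ∀ ψ ∈ b, blockOf M (ψ : K → ℂ) ⊆ b := fun ψ hψ =>
    (IsPBlock.eq_blockOf hMp hb hψ).ge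
  have h1 := blockRank_eq hM b hbu
  have h2 : ((∑ ζ ∈ Finset.univ.filter (· ∈ b), m ζ ζ : ℤ) : ℂ)
      = ((p ^ blockDefect p b : ℕ) : ℂ) * (blockRank p b : ℂ) := by
    rw [h1]
    push_cast
    rw [Finset.sum_congr rfl fun ζ hζ => hm3 ζ (Finset.mem_filter.1 hζ).2 ζ, ← Finset.mul_sum,
      Finset.sum_comm, div_eq_mul_inv, mul_assoc]
    push_cast
    congr 2
    refine Finset.sum_congr rfl fun s _ => ?_
    by_cases hs : p ∣ orderOf s
    · simp [hs]
    · simp only [if_pos hs]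
      rw [finsum_mem_irr, Finset.sum_filter]
  exact_mod_cast h2

open Classical in
theorem regMatrix_diag_ne [Fact p.Prime] (hM : IsPModular p M) {b : Set (IrrCharacter K)}
    (hb : IsPBlock M b) (hd : 0 < blockDefect p b) (m : IrrCharacter K → IrrCharacter K → ℤ)
    (hm3 : ∀ ζ ∈ b, ∀ ξ, (m ζ ξ : ℂ) = ((p ^ blockDefect p b : ℕ) : ℂ) / (Fintype.card K : ℂ) *
        ∑ s : K, if ¬ p ∣ orderOf s then (ζ : K → ℂ) s * conj ((ξ : K → ℂ) s) else 0)
    {ζ : IrrCharacter K} (hζ : ζ ∈ b) : m ζ ζ ≠ (p : ℤ) ^ blockDefect p b := by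
  intro heq
  have hMp := pmod_isPrime hM
  have hc0 : (Fintype.card K : ℂ) ≠ 0 := by exact_mod_cast Fintype.card_ne_zero
  have hp0 : ((p ^ blockDefect p b : ℕ) : ℂ) ≠ 0 := by
    exact_mod_cast pow_ne_zero _ hM.1.ne_zero
  have h1 := hm3 ζ hζ ζ
  rw [heq] at h1
  have h2 : ∑ s : K, (if ¬ p ∣ orderOf s then (ζ : K → ℂ) s * conj ((ζ : K → ℂ) s) else 0)
      = (Fintype.card K : ℂ) := by
    have : ((p ^ blockDefect p b : ℕ) : ℂ) * (Fintype.card K : ℂ) = ((p ^ blockDefect p b : ℕ) : ℂ) *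
        ∑ s : K, (if ¬ p ∣ orderOf s then (ζ : K → ℂ) s * conj ((ζ : K → ℂ) s) else 0) := by
      push_cast at h1 ⊢
      field_simp at h1
      linear_combination h1
    exact (mul_left_cancel₀ hp0 this).symm
  have h3 : ∑ s : K, (ζ : K → ℂ) s * conj ((ζ : K → ℂ) s) = (Fintype.card K : ℂ) := by
    have := sum_irr_mul_conj ζ ζ
    simpa using this
  -- real version
  have h4 : ∑ s : K, (if p ∣ orderOf s then ‖(ζ : K → ℂ) s‖ ^ 2 else 0) = 0 := by
    have e : ((∑ s : K, (if p ∣ orderOf s then ‖(ζ : K → ℂ) s‖ ^ 2 else 0) : ℝ) : ℂ) = 0 := by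
      push_cast
      have e1 : ∀ s : K, (((if p ∣ orderOf s then ‖(ζ : K → ℂ) s‖ ^ 2 else 0 : ℝ)) : ℂ)
          = (ζ : K → ℂ) s * conj ((ζ : K → ℂ) s)
            - (if ¬ p ∣ orderOf s then (ζ : K → ℂ) s * conj ((ζ : K → ℂ) s) else 0) := by
        intro s
        by_cases hs : p ∣ orderOf s
        · simp [hs, Complex.mul_conj']
        · simp [hs]
      rw [Finset.sum_congr rfl fun s _ => e1 s, Finset.sum_sub_distrib, h2, h3, sub_self]
    exact_mod_cast e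
  have h5 : ∀ s : K, p ∣ orderOf s → (ζ : K → ℂ) s = 0 := by
    intro s hs
    have := (Finset.sum_eq_zero_iff_of_nonneg (fun s _ => by split_ifs <;> positivity)).1 h4 s
      (Finset.mem_univ s)
    rw [if_pos hs] at this
    exact norm_eq_zero.1 (pow_eq_zero_iff two_ne_zero |>.1 this)
  obtain ⟨P⟩ : Nonempty (Sylow p K) := inferInstance
  have h6 : Nat.card P ∣ charDegree (ζ : K → ℂ) := by
    apply card_dvd_charDegree_of_vanish (Helper74.IrrCharacter.isCharacter ζ) (P : Subgroup K)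
    intro u hu hu1
    apply h5
    obtain ⟨k, hk⟩ := (IsPGroup.iff_orderOf.1 P.2) ⟨u, hu⟩
    rw [Subgroup.orderOf_mk] at hk
    rw [hk]
    apply dvd_pow_self
    rintro rfl
    apply hu1
    simpa using hk
  rw [Sylow.card_eq_multiplicity] at h6
  have h7 : (Nat.card K).factorization p ≤ (charDegree (ζ : K → ℂ)).factorization p :=
    (Nat.Prime.pow_dvd_iff_le_factorization hM.1 (irr_charDegree_pos ζ).ne').1 h6
  -- all characters of `b` then... use the singleton block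
  have h8 : ¬ p ∣ Nat.card K / charDegree (ζ : K → ℂ) := by
    intro hdvd
    have h9 := hM.1.factorization_pos_of_dvd
      (Nat.div_pos (Nat.le_of_dvd Nat.card_pos (irr_charDegree_dvd_card ζ))
        (irr_charDegree_pos ζ)).ne' hdvd
    rw [Nat.factorization_div (irr_charDegree_dvd_card ζ)] at h9
    simp only [Finsupp.coe_tsub, Pi.sub_apply] at h9
    omega
  have h10 := (defect_zero_iff hM ζ).1 h8
  have h11 := two_le_card_of_defect_pos hM hb hd
  rw [IsPBlock.eq_blockOf hMp hb hζ, h10] at h11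
  simp at h11

open Classical in
theorem regForm_minor [Fact p.Prime] (h : IsPModular p M) {b : Set (IrrCharacter K)}
    (hb : IsPBlock M b) (m : IrrCharacter K → IrrCharacter K → ℤ)
    (hm : ∀ ζ ∈ b, ∀ ξ, (m ζ ξ : ℂ) * ((p ^ minDeg p b : ℕ) : ℂ)
        = classInner (tilde p (ζ : K → ℂ)) (ξ : K → ℂ)) (v w v' w' : IrrCharacter K → ℤ) :
    (p : ℤ) ∣ regForm (Finset.univ.filter (· ∈ b)) m v w *
      regForm (Finset.univ.filter (· ∈ b)) m v' w'
        - regForm (Finset.univ.filter (· ∈ b)) m v w' *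
      regForm (Finset.univ.filter (· ∈ b)) m v' w := by
  have hM := pmod_isPrime h
  obtain ⟨O, R, hO, hR, hE⟩ := exists_rank_one_mod h hb m hm
  set Bf := regForm (Finset.univ.filter (· ∈ b)) m with hBf
  rw [← memLocalIdeal_intCast_iff h]
  have key : ((Bf v w * Bf v' w' - Bf v w' * Bf v' w : ℤ) : ℂ)
      = (((Bf v w : ℤ) : ℂ) - O v * R w) * ((Bf v' w' : ℤ) : ℂ)
        + (O v * R w) * (((Bf v' w' : ℤ) : ℂ) - O v' * R w')
        - ((((Bf v w' : ℤ) : ℂ) - O v * R w') * ((Bf v' w : ℤ) : ℂ)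
        + (O v * R w') * (((Bf v' w : ℤ) : ℂ) - O v' * R w)) := by
    push_cast
    ring
  rw [key]
  refine MemLocalIdeal.sub hM (MemLocalIdeal.add hM ?_ ?_) (MemLocalIdeal.add hM ?_ ?_)
  · exact MemLocalIdeal.mul_right hM (hE v w) (memLocalRing_intCast hM _)
  · exact MemLocalIdeal.mul_left hM (MemLocalRing.mul hM (hO v) (hR w)) (hE v' w')
  · exact MemLocalIdeal.mul_right hM (hE v w') (memLocalRing_intCast hM _)
  · exact MemLocalIdeal.mul_left hM (MemLocalRing.mul hM (hO v) (hR w')) (hE v' w)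

open Classical in
theorem reg_min_defect_one [Fact p.Prime] (hM : IsPModular p M) {b : Set (IrrCharacter K)}
    (hb : IsPBlock M b) (hd : blockDefect p b = 1)
    (m : IrrCharacter K → IrrCharacter K → ℤ) (hm1 : ∀ ζ ξ, m ζ ξ = m ξ ζ)
    (hm2 : ∀ ζ ∈ b, ∀ ξ, (m ζ ξ : ℂ) * ((p ^ minDeg p b : ℕ) : ℂ)
        = classInner (tilde p (ζ : K → ℂ)) (ξ : K → ℂ))
    (hm3 : ∀ ζ ∈ b, ∀ ξ, (m ζ ξ : ℂ) = ((p ^ blockDefect p b : ℕ) : ℂ) / (Fintype.card K : ℂ) *
        ∑ s : K, if ¬ p ∣ orderOf s then (ζ : K → ℂ) s * conj ((ξ : K → ℂ) s) else 0)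
    (v : IrrCharacter K → ℤ) :
    regForm (Finset.univ.filter (· ∈ b)) m v v = 0 ∨
      (blockRank p b : ℤ) ≤ regForm (Finset.univ.filter (· ∈ b)) m v v := by
  by_cases h0 : regForm (Finset.univ.filter (· ∈ b)) m v v = 0
  · exact Or.inl h0
  right
  set bF := Finset.univ.filter (· ∈ b) with hbF
  have hiff : ∀ ζ, ζ ∈ bF ↔ ζ ∈ b := fun ζ => by simp [hbF]
  let Mx : Matrix {ζ : IrrCharacter K // ζ ∈ b} {ζ : IrrCharacter K // ζ ∈ b} ℤ :=
    fun ζ ξ => m ζ.1 ξ.1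
  have hq : (fun ζ : {ζ : IrrCharacter K // ζ ∈ b} => v ζ.1) ⬝ᵥ
      Mx.mulVec (fun ζ : {ζ : IrrCharacter K // ζ ∈ b} => v ζ.1) = regForm bF m v v := by
    rw [regForm_apply, Finset.sum_subtype bF hiff]
    simp only [dotProduct, Matrix.mulVec]
    refine Finset.sum_congr rfl fun ζ _ => ?_
    rw [Finset.sum_subtype bF hiff, Finset.mul_sum]
    refine Finset.sum_congr rfl fun ξ _ => ?_
    simp only [Mx]
    ring
  have key := form_min p hM.1 Mx (by ext ζ ξ; exact hm1 _ _) ?_ ?_ ?_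
    (fun ζ : {ζ : IrrCharacter K // ζ ∈ b} => v ζ.1) (by rw [hq]; exact h0)
  · rw [hq] at key
    have htr : Mx.trace = (p : ℤ) * (blockRank p b : ℤ) := by
      have := regMatrix_trace hM hb m hm3
      rw [hd, pow_one, ← hbF, Finset.sum_subtype bF hiff] at this
      exact this
    rw [htr] at key
    exact le_of_mul_le_mul_left key (by exact_mod_cast hM.1.pos)
  · ext ζ η
    have := regMatrix_idem hM hb m hm1 hm3 ζ.2 η.2
    rw [hd, pow_one, ← hbF, Finset.sum_subtype bF hiff] at this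
    rw [Matrix.mul_apply, Matrix.smul_apply, smul_eq_mul]
    exact this
  · intro ζ
    have := regMatrix_diag_ne hM hb (by omega) m hm3 ζ.2
    rw [hd, pow_one] at this
    exact this
  · intro i j k l
    have := regForm_minor hM hb m hm2 (Pi.single i.1 1) (Pi.single j.1 1) (Pi.single k.1 1)
      (Pi.single l.1 1)
    rw [← hbF, regForm_single_single _ m ((hiff _).2 i.2) ((hiff _).2 j.2),
      regForm_single_single _ m ((hiff _).2 k.2) ((hiff _).2 l.2),
      regForm_single_single _ m ((hiff _).2 i.2) ((hiff _).2 l.2),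
      regForm_single_single _ m ((hiff _).2 k.2) ((hiff _).2 j.2)] at this
    exact this

end Cfsg.Agent.Lib.Helper78
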