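import Mathlib
import Cfsg.Prelude.Def_Blocks
import Cfsg.Agent.Lib.Helper78.BF.DefectOneMin
import Cfsg.Agent.Lib.Helper35.KleinA
import Cfsg.Agent.Lib.Helper70.BFQ
import Cfsg.Agent.S0912
import Cfsg.Agent.S4733

/-!
# The integral form of a block of defect at most two of a group with a central element of
order `p` (helper78)
-/

set_option autoImplicit false

namespace Cfsg.Agent.Lib.Helper78

open Cfsg Cfsg.Agent.Lib.Helper4 Cfsg.Agent.Lib.Helper16 Cfsg.Agent.Lib.Helper97
  Cfsg.Agent.Lib.Helper35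
open scoped ComplexConjugate

variable {K : Type*} [Group K] [Fintype K]
variable {M : Ideal AlgInt} {p : ℕ}

/-- defect of the dominated block -/
theorem blockDefect_quotSet [Fact p.Prime] (hM : IsPModular p M) (Z : Subgroup K) [hZn : Z.Normal]
    [Fintype (K ⧸ Z)] (hZc : Z ≤ Subgroup.center K) {j : ℕ} (hZcard : Nat.card Z = p ^ j)
    {b : Set (IrrCharacter K)} (hb : IsPBlock M b) :
    blockDefect p b = blockDefect p (quotSet Z b) + j := by
  have hZp : IsPGroup p Z := IsPGroup.of_card hZcard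
  obtain ⟨Q, hQ⟩ := Cfsg.Agent.Lib.Helper16.exists_isDefectGroup hM hb
  have hZQ : Z ≤ Q := le_trans (le_sSup (show Z ∈ {N : Subgroup K | N.Normal ∧ IsPGroup p N} from
    ⟨hZn, hZp⟩)) (Cfsg.Agent.S0912.result p M hM b hb Q hQ)
  have h1 := card_of_isDefectGroup hM hb hQ
  have h2 := card_of_isDefectGroup hM (isPBlock_quotSet_central Z hM hZc hZp hb)
    ((isDefectGroup_quotSet_central Z hM hZc hZp hb _).mpr ⟨Q, hQ, rfl⟩)
  have h3 := card_map_mk_mul Z hZQ
  rw [h1, h2, hZcard, ← pow_add] at h3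
  exact (Nat.pow_right_injective hM.1.two_le h3).symm

open Classical in
theorem reg_min_central [Fact p.Prime] (hM : IsPModular p M) {b : Set (IrrCharacter K)}
    (hb : IsPBlock M b) (hd : blockDefect p b ≤ 2) {z : K} (hz : orderOf z = p)
    (hzc : z ∈ Subgroup.center K)
    (m : IrrCharacter K → IrrCharacter K → ℤ)
    (hm3 : ∀ ζ ∈ b, ∀ ξ, (m ζ ξ : ℂ) = ((p ^ blockDefect p b : ℕ) : ℂ) / (Fintype.card K : ℂ) *
        ∑ s : K, if ¬ p ∣ orderOf s then (ζ : K → ℂ) s * conj ((ξ : K → ℂ) s) else 0)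
    (v : IrrCharacter K → ℤ) :
    regForm (Finset.univ.filter (· ∈ b)) m v v = 0 ∨
      (blockRank p b : ℤ) ≤ regForm (Finset.univ.filter (· ∈ b)) m v v := by
  have hMp := pmod_isPrime hM
  set Z : Subgroup K := Subgroup.zpowers z with hZ
  have hZc : Z ≤ Subgroup.center K := by
    rw [hZ, Subgroup.zpowers_le]; exact hzc
  have hZn : Z.Normal := ⟨fun y hy g => by
    have h1 := Subgroup.mem_center_iff.mp (hZc hy) g
    rw [h1, mul_inv_cancel_right]; exact hy⟩
  have := Fintype.ofFinite (K ⧸ Z)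
  have hZcard : Nat.card Z = p ^ 1 := by rw [hZ, Nat.card_zpowers, hz, pow_one]
  have hZp : IsPGroup p Z := IsPGroup.of_card hZcard
  have hbq := isPBlock_quotSet_central Z hM hZc hZp hb
  have hrank := blockRank_quotSet Z hM hZc hZp hb
  have hdef := blockDefect_quotSet hM Z hZc hZcard hb
  have hBr : BrauerChar (K ⧸ Z) := fun θ hθ hE => Cfsg.Agent.S0164.result θ hθ hE
  obtain ⟨mq, hq1, hq2, hq3⟩ := exists_regMatrix hBr hM hbq
  obtain ⟨w, hw⟩ := Cfsg.Agent.Lib.Helper70.BFQ.exists_quot_vector Z hM hZc hZp hb v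
  have hcard : (Fintype.card K : ℂ) = (p : ℂ) * (Fintype.card (K ⧸ Z) : ℂ) := by
    have h5 := Subgroup.card_eq_card_quotient_mul_card_subgroup Z
    rw [hZcard, pow_one, Nat.card_eq_fintype_card, Nat.card_eq_fintype_card] at h5
    rw [h5]; push_cast; ring
  have heq : regForm (Finset.univ.filter (· ∈ b)) m v v
      = regForm (Finset.univ.filter (· ∈ quotSet Z b)) mq w w := by
    have h1 := regForm_eq b m _ hm3 v v
    have h2 := regForm_eq (quotSet Z b) mq _ hq3 w w
    have h3 : ∑ s : K, Vr p b v s * conj (Vr p b v s)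
        = ∑ y : K ⧸ Z, Vr p (quotSet Z b) w y * conj (Vr p (quotSet Z b) w y) := by
      have e1 : ∀ s : K, Vr p b v s * conj (Vr p b v s) = if ¬ p ∣ orderOf s then
          (fun y : K ⧸ Z => Vr p (quotSet Z b) w y * conj (Vr p (quotSet Z b) w y)) (s : K ⧸ Z)
          else 0 := by
        intro s
        by_cases hs : p ∣ orderOf s
        · simp [Vr, hs]
        · rw [if_pos hs, hw s hs]
      have e2 : ∀ y : K ⧸ Z, Vr p (quotSet Z b) w y * conj (Vr p (quotSet Z b) w y)
          = if ¬ p ∣ orderOf y then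
            (fun y : K ⧸ Z => Vr p (quotSet Z b) w y * conj (Vr p (quotSet Z b) w y)) y else 0 := by
        intro y
        by_cases hy : p ∣ orderOf y
        · simp [Vr, hy]
        · rw [if_pos hy]
      rw [Finset.sum_congr rfl fun s _ => e1 s, Finset.sum_congr rfl fun y _ => e2 y]
      convert sum_regular_quot Z hZc hZp
        (fun y : K ⧸ Z => Vr p (quotSet Z b) w y * conj (Vr p (quotSet Z b) w y)) using 1
    have hp0 : (p : ℂ) ≠ 0 := by exact_mod_cast hM.1.ne_zero
    have hq0 : (Fintype.card (K ⧸ Z) : ℂ) ≠ 0 := by exact_mod_cast Fintype.card_ne_zero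
    have h4 : ((p ^ blockDefect p b : ℕ) : ℂ) / (Fintype.card K : ℂ)
        = ((p ^ blockDefect p (quotSet Z b) : ℕ) : ℂ) / (Fintype.card (K ⧸ Z) : ℂ) := by
      rw [hdef, hcard]
      push_cast
      rw [pow_succ]
      field_simp
    have h5 : ((regForm (Finset.univ.filter (· ∈ b)) m v v : ℤ) : ℂ)
        = ((regForm (Finset.univ.filter (· ∈ quotSet Z b)) mq w w : ℤ) : ℂ) := by
      rw [h1, h2, h3, h4]
    exact_mod_cast h5
  rw [heq, ← hrank]
  have hcases : blockDefect p (quotSet Z b) = 0 ∨ blockDefect p (quotSet Z b) = 1 := by omega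
  rcases hcases with h0 | h1
  · -- defect zero
    have h2 := ((Cfsg.Agent.S4733.result p M hM _ hbq).2.1.1 h0).2
    rw [h2]
    have hκpos : (0 : ℝ) < ((p ^ blockDefect p (quotSet Z b) : ℕ) : ℝ) /
        (Fintype.card (K ⧸ Z) : ℝ) := by
      apply div_pos
      · exact_mod_cast pow_pos hM.1.pos _
      · exact_mod_cast Fintype.card_pos
    have hF : ∀ n n' : IrrCharacter (K ⧸ Z) → ℤ,
        ((regForm (Finset.univ.filter (· ∈ quotSet Z b)) mq n n' : ℤ) : ℂ)
        = ((((p ^ blockDefect p (quotSet Z b) : ℕ) : ℝ) / (Fintype.card (K ⧸ Z) : ℝ) : ℝ) : ℂ) *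
          ∑ s, Vr p (quotSet Z b) n s * conj (Vr p (quotSet Z b) n' s) := by
      intro n n'
      rw [regForm_eq (quotSet Z b) mq _ hq3]
      push_cast
      rfl
    obtain ⟨hpos, -⟩ := form_pos
      (fun n n' => regForm (Finset.univ.filter (· ∈ quotSet Z b)) mq n n') (Vr p (quotSet Z b)) _
      hκpos hF
    have := hpos w
    push_cast
    omega
  · exact reg_min_defect_one hM hbq h1 mq hq1 hq2 hq3 w

end Cfsg.Agent.Lib.Helper78
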