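import Mathlib
import Cfsg.Prelude.Def_Blocks
import Cfsg.Agent.Lib.Helper78.BF.CentralMin
import Cfsg.Agent.Lib.Helper78.BF.AvgMin
import Cfsg.Agent.S4710
import Cfsg.Agent.S4716

/-!
# Brauer–Feit: `k(B) ≤ p^d` for `d ≤ 2` and `k(B) ≤ p^(2d-2)` for `d ≥ 3` (helper78)
-/

set_option autoImplicit false

namespace Cfsg.Agent.Lib.Helper78

open Cfsg Cfsg.Agent.Lib.Helper4 Cfsg.Agent.Lib.Helper16 Cfsg.Agent.Lib.Helper97
  Cfsg.Agent.Lib.Helper35
open scoped ComplexConjugate

section
variable {G : Type*} [Group G] [Fintype G]
variable {M : Ideal AlgInt} {p : ℕ} [Fact p.Prime]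

theorem orderOf_cenSelf (x : G) : orderOf (cenSelf x) = orderOf x := by
  rw [← Subgroup.orderOf_coe]; rfl

theorem cenSelf_mem_center (x : G) : cenSelf x ∈ Subgroup.center (Cen x) := by
  rw [Subgroup.mem_center_iff]; exact cenSelf_central x

open Classical in
/-- `k₀(B) ≤ p^q` for every subsection `(x,b)` with `x` of order `p` and `b` of defect `q ≤ 2` -/
theorem card_height_zero_le_of_defect_le_two (hM : IsPModular p M) (x : G) (hx : orderOf x = p)
    {B : Set (IrrCharacter G)} {b : Set (IrrCharacter (Cen x))}
    (hind : IsInducedBlock M (Cen x) b B) (hd : blockDefect p b ≤ 2) :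
    ((Finset.univ.filter (· ∈ B)).filter
      (fun χ : IrrCharacter G => blockHeight p B (χ : G → ℂ) = 0)).card ≤ p ^ blockDefect p b :=
  card_height_zero_le_of_min hM x hx hind fun m hm3 v =>
    reg_min_central hM hind.1 hd (z := cenSelf x) (by rw [orderOf_cenSelf, hx])
      (cenSelf_mem_center x) m hm3 v

end

universe u

theorem card_block_le_aux (p : ℕ) [Fact p.Prime] (M : Ideal AlgInt) (hM : IsPModular p M) :
    ∀ d : ℕ, ∀ (G : Type u) [Group G] [Fintype G] (B : Set (IrrCharacter G)), IsPBlock M B →
      blockDefect p B = d → Nat.card B ≤ (if d ≤ 2 then p ^ d else p ^ (2 * d - 2)) := by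
  classical
  intro d
  induction d using Nat.strong_induction_on with
  | _ d ih =>
    intro G _ _ B hB hd
    have hMp := pmod_isPrime hM
    have hp : p.Prime := hM.1
    rcases Nat.eq_zero_or_pos d with h0 | hpos
    · subst h0
      have h1 := ((Cfsg.Agent.S4733.result p M hM B hB).2.1.1 hd).1
      rw [h1]; simp
    obtain ⟨y, hy, b, hind, hdef⟩ := exists_major_subsection hM hB (by omega)
    have h10 := Cfsg.Agent.S4710.result p M hM B hB d hd
    have hcardB : (Finset.univ.filter (· ∈ B)).card = Nat.card B := by
      rw [Nat.card_eq_fintype_card, Fintype.card_subtype]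
    by_cases hd2 : d ≤ 2
    · rw [if_pos hd2]
      have hh : ∀ χ ∈ B, blockHeight p B (χ : G → ℂ) = 0 := by
        intro χ hχ
        obtain ⟨h1, h2⟩ := h10.2 χ hχ
        by_cases hd1 : d ≤ 1
        · exact h1 hd1
        · have := h2 (by omega); omega
      have h1 := card_height_zero_le_of_defect_le_two hM y hy hind (by omega)
      rw [Finset.filter_true_of_mem (fun χ hχ => hh χ (Finset.mem_filter.1 hχ).2), hcardB, hdef,
        hd] at h1
      exact h1
    · rw [if_neg hd2]
      by_cases hex : ∃ χ ∈ B, 0 < blockHeight p B (χ : G → ℂ)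
      · have := h10.1 hex
        omega
      · push Not at hex
        have hh : ∀ χ ∈ B, blockHeight p B (χ : G → ℂ) = 0 := fun χ hχ => by
          have := hex χ hχ; omega
        have h16 := Cfsg.Agent.S4716.result p M hM B hB d hd hh y ⟨1, by rw [hy, pow_one]⟩ b hind
          (by rw [hdef, hd])
        -- the dominated block
        set Z : Subgroup (Cen y) := Subgroup.zpowers (cenSelf y) with hZ
        have hZc : Z ≤ Subgroup.center (Cen y) := by
          rw [hZ, Subgroup.zpowers_le]; exact cenSelf_mem_center y
        have hZn : Z.Normal := ⟨fun w hw g => by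
          have h1 := Subgroup.mem_center_iff.mp (hZc hw) g
          rw [h1, mul_inv_cancel_right]; exact hw⟩
        have := Fintype.ofFinite (Cen y ⧸ Z)
        have hZcard : Nat.card Z = p ^ 1 := by
          rw [hZ, Nat.card_zpowers, orderOf_cenSelf, hy, pow_one]
        have hZp : IsPGroup p Z := IsPGroup.of_card hZcard
        have hbq := isPBlock_quotSet_central Z hM hZc hZp hind.1
        have hrank := blockRank_quotSet Z hM hZc hZp hind.1
        have hdq := blockDefect_quotSet hM Z hZc hZcard hind.1
        have hdq' : blockDefect p (quotSet Z b) = d - 1 := by omega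
        have hih := ih (d - 1) (by omega) (Cen y ⧸ Z) (quotSet Z b) hbq hdq'
        have hle : Nat.card (quotSet Z b) ≤ p ^ (2 * d - 4) := by
          refine hih.trans ?_
          split_ifs with h
          · have : d = 3 := by omega
            subst this
            norm_num
          · apply le_of_eq
            congr 1
            omega
        have hl : blockRank p b ≤ p ^ (2 * d - 4) := by
          rw [← hrank]
          exact (Cfsg.Agent.S4733.result p M hM _ hbq).1.trans hle
        have h2 : Nat.card B ^ 2 ≤ (p ^ (2 * d - 2)) ^ 2 := by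
          calc Nat.card B ^ 2 ≤ p ^ (2 * d) * blockRank p b := h16
            _ ≤ p ^ (2 * d) * p ^ (2 * d - 4) := Nat.mul_le_mul_left _ hl
            _ = (p ^ (2 * d - 2)) ^ 2 := by
                rw [← pow_add, ← pow_mul]
                congr 1
                omega
        exact (Nat.pow_le_pow_iff_left (by norm_num)).1 h2

end Cfsg.Agent.Lib.Helper78
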