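import Mathlib
import Cfsg.Prelude.Def_Blocks
import Cfsg.Agent.Lib.Helper78.BF.Main
import Cfsg.Agent.Lib.Helper4.PrincipalSection
import Cfsg.Agent.S0936

/-!
# `k₀(B₀) ≤ p²` when some `p`-element has a centralizer with `p`-part at most `p²` (helper78)
-/

set_option autoImplicit false

namespace Cfsg.Agent.Lib.Helper78

open Cfsg Cfsg.Agent.Lib.Helper4 Cfsg.Agent.Lib.Helper16 Cfsg.Agent.Lib.Helper97
  Cfsg.Agent.Lib.Helper35
open scoped ComplexConjugate

variable {G : Type*} [Group G] [Fintype G]
variable {M : Ideal AlgInt} {p : ℕ} [Fact p.Prime]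

theorem minDeg_principalBlock (hM : M.IsPrime) : minDeg p (principalBlock M G) = 0 := by
  have h1 := minDeg_le (p := p) (trivIrr_mem_principalBlock (G := G) hM)
  have h2 : charDegree ((trivIrr G : IrrCharacter G) : G → ℂ) = 1 := by
    have h := irr_one_eq (trivIrr G)
    have h3 : ((trivIrr G : IrrCharacter G) : G → ℂ) 1 = 1 := rfl
    rw [h3] at h
    exact_mod_cast h.symm
  rw [h2] at h1
  simpa using h1

theorem blockDefect_principalBlock (hM : M.IsPrime) :
    blockDefect p (principalBlock M G) = (Nat.card G).factorization p := by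
  rw [blockDefect_eq, minDeg_principalBlock hM, Nat.sub_zero]

theorem blockHeight_principalBlock_eq_zero_iff (hM : M.IsPrime) (χ : IrrCharacter G) :
    blockHeight p (principalBlock M G) (χ : G → ℂ) = 0 ↔ ¬ p ∣ charDegree (χ : G → ℂ) := by
  have hp : p.Prime := Fact.out
  rw [blockHeight_eq, minDeg_principalBlock hM, Nat.sub_zero, Nat.factorization_eq_zero_iff]
  constructor
  · rintro (h | h | h)
    · exact absurd hp h
    · exact h
    · exact absurd h (irr_charDegree_pos χ).ne'
  · intro h; exact Or.inr (Or.inl h)

open Classical in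
theorem card_principal_height_zero_le (hM : IsPModular p M) (x : G) {k : ℕ}
    (hxk : orderOf x = p ^ k) (hc : (Nat.card (Cen x)).factorization p ≤ 2) :
    ((Finset.univ.filter (· ∈ principalBlock M G)).filter
      (fun χ : IrrCharacter G => blockHeight p (principalBlock M G) (χ : G → ℂ) = 0)).card
      ≤ p ^ 2 := by
  have hMp := pmod_isPrime hM
  have hp : p.Prime := hM.1
  set B0 := principalBlock M G with hB0
  have hB : IsPBlock M B0 := isPBlock_principalBlock
  rcases Nat.eq_zero_or_pos k with h0 | hk
  · subst h0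
    rw [pow_zero, orderOf_eq_one_iff] at hxk
    subst hxk
    have h1 : Cen (1 : G) = ⊤ := by
      ext g; simp [Subgroup.mem_centralizer_singleton_iff]
    rw [h1, Subgroup.card_top] at hc
    have hd : blockDefect p B0 ≤ 2 := by rw [hB0, blockDefect_principalBlock hMp]; exact hc
    have h2 := card_block_le_aux p M hM _ G B0 hB rfl
    rw [if_pos hd] at h2
    have hcardB : (Finset.univ.filter (· ∈ B0)).card = Nat.card B0 := by
      rw [Nat.card_eq_fintype_card, Fintype.card_subtype]
    calc _ ≤ (Finset.univ.filter (· ∈ B0)).card := Finset.card_filter_le _ _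
      _ = Nat.card B0 := hcardB
      _ ≤ p ^ blockDefect p B0 := h2
      _ ≤ p ^ 2 := Nat.pow_le_pow_right hp.pos hd
  · set b0 := principalBlock M (Cen x) with hb0
    have hb : IsPBlock M b0 := isPBlock_principalBlock
    have hdefd := inducedBlockDefined_cen hM x ⟨k, hxk⟩ hb
    have hind : IsInducedBlock M (Cen x) b0 B0 :=
      (Cfsg.Agent.S0936.result p M hM _ b0 hdefd).2 rfl
    have hq : blockDefect p b0 = (Nat.card (Cen x)).factorization p := by
      rw [hb0, blockDefect_principalBlock hMp]
    have hkq : k ≤ (Nat.card (Cen x)).factorization p := by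
      have h1 : p ^ k ∣ Nat.card (Cen x) := by
        rw [← hxk, ← orderOf_cenSelf]; exact orderOf_dvd_natCard _
      exact (Nat.Prime.pow_dvd_iff_le_factorization hp Nat.card_pos.ne').1 h1
    have hk12 : k = 1 ∨ k = 2 := by omega
    rcases hk12 with rfl | rfl
    · have h1 := card_height_zero_le_of_defect_le_two hM x (by rw [hxk, pow_one]) hind
        (by rw [hq]; exact hc)
      exact h1.trans (Nat.pow_le_pow_right hp.pos (by rw [hq]; exact hc))
    · have hq2 : blockDefect p b0 = 2 := by omega
      set Z : Subgroup (Cen x) := Subgroup.zpowers (cenSelf x) with hZ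
      have hZc : Z ≤ Subgroup.center (Cen x) := by
        rw [hZ, Subgroup.zpowers_le]; exact cenSelf_mem_center x
      have hZn : Z.Normal := ⟨fun w hw g => by
        have h1 := Subgroup.mem_center_iff.mp (hZc hw) g
        rw [h1, mul_inv_cancel_right]; exact hw⟩
      have := Fintype.ofFinite (Cen x ⧸ Z)
      have hZcard : Nat.card Z = p ^ 2 := by
        rw [hZ, Nat.card_zpowers, orderOf_cenSelf, hxk]
      have hZp : IsPGroup p Z := IsPGroup.of_card hZcard
      have hbq := isPBlock_quotSet_central Z hM hZc hZp hb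
      have hrank := blockRank_quotSet Z hM hZc hZp hb
      have hdq := blockDefect_quotSet hM Z hZc hZcard hb
      have hdq0 : blockDefect p (quotSet Z b0) = 0 := by omega
      have hl : blockRank p b0 = 1 := by
        rw [← hrank]
        exact ((Cfsg.Agent.S4733.result p M hM _ hbq).2.1.1 hdq0).2
      have h1 := sq_card_height_zero_le hM x ⟨2, hxk⟩ hind
      rw [hl, mul_one, hq2, mul_comm 2 2, pow_mul] at h1
      exact (Nat.pow_le_pow_iff_left (by norm_num)).1 h1

end Cfsg.Agent.Lib.Helper78
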